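import Cfsg.Agent.H481.PermInv
import Mathlib.GroupTheory.GroupAction.Quotient
import Mathlib.GroupTheory.PGroup

/-!
# Elementary abelian `2`-groups acting faithfully

`card_sq_le` : `|E|² ≤ 2 ^ |Ω|` for an elementary abelian `2`-group `E` acting faithfully on `Ω`.
`card_le_of_sub` : an elementary abelian `2`-subgroup `A`, invariant under `α`, of a centreless group `G = [G, α]`
has order at most `2 ^ (|J| - 1)`.
-/

set_option autoImplicit false

namespace Cfsg.Agent.H481.Inv

open Cfsg

universe u v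

theorem sq_le_two_pow_of_pow_two (a : ℕ) : (2 ^ a) ^ 2 ≤ 2 ^ (2 ^ a) := by
  rw [← pow_mul]
  apply Nat.pow_le_pow_right (by norm_num)
  rcases a with _ | _ | a
  · norm_num
  · norm_num
  · have h : a + 2 < 2 ^ (a + 2) := Nat.lt_two_pow_self
    have h1 : a + 2 ≤ 2 ^ (a + 1) := by
      have : a + 1 < 2 ^ (a + 1) := Nat.lt_two_pow_self
      omega
    calc (a + 1 + 1) * 2 ≤ 2 ^ (a + 1) * 2 := by omega
      _ = 2 ^ (a + 1 + 1) := by rw [← pow_succ]

theorem card_sq_le (E : Type u) (Ω : Type v) [Group E] [Finite E] [Finite Ω] [MulAction E Ω]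
    [FaithfulSMul E Ω] (h2 : ∀ e : E, e * e = 1) : Nat.card E ^ 2 ≤ 2 ^ Nat.card Ω := by
  classical
  have hcomm : ∀ a b : E, a * b = b * a := by
    intro a b
    have h1 := h2 (a * b)
    have ha : a⁻¹ = a := inv_eq_of_mul_eq_one_left (h2 a)
    have hb : b⁻¹ = b := inv_eq_of_mul_eq_one_left (h2 b)
    have h3 : a * b = (a * b)⁻¹ := (inv_eq_of_mul_eq_one_left h1).symm
    rw [h3, mul_inv_rev, ha, hb]
  have hp : IsPGroup 2 E := fun e => ⟨1, by rw [pow_one, pow_two]; exact h2 e⟩
  have hF : Fact (Nat.Prime 2) := ⟨Nat.prime_two⟩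
  have := Fintype.ofFinite (MulAction.orbitRel.Quotient E Ω)
  have h1 : Nat.card E ≤ ∏ ω : MulAction.orbitRel.Quotient E Ω, Nat.card ω.orbit := by
    rw [← Nat.card_pi]
    apply Nat.card_le_card_of_injective
      (fun e : E => fun ω : MulAction.orbitRel.Quotient E Ω => (⟨e • ω.out, by
        rw [MulAction.orbitRel.Quotient.mem_orbit]
        rw [show (Quotient.mk'' (e • ω.out) : MulAction.orbitRel.Quotient E Ω) = Quotient.mk'' ω.out from
          Quotient.sound' (MulAction.orbitRel_apply.2 (MulAction.mem_orbit _ _))]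
        exact Quotient.out_eq' ω⟩ : ω.orbit))
    intro e f hef
    apply eq_of_smul_eq_smul (α := Ω)
    intro x
    -- `x = g • out`
    set ω : MulAction.orbitRel.Quotient E Ω := Quotient.mk'' x with hω
    have h3 : MulAction.orbitRel E Ω ω.out x := Quotient.exact' (Quotient.out_eq' ω)
    rw [MulAction.orbitRel_apply] at h3
    obtain ⟨g, hg⟩ := MulAction.mem_orbit_symm.1 h3
    have h4 : e • ω.out = f • ω.out := congrArg (fun k => ((k ω : ω.orbit) : Ω)) hef
    rw [← hg]
    change e • g • ω.out = f • g • ω.out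
    rw [smul_smul, smul_smul, hcomm e g, hcomm f g, ← smul_smul, ← smul_smul, h4]
  have h3 : ∀ ω : MulAction.orbitRel.Quotient E Ω, Nat.card ω.orbit ^ 2 ≤ 2 ^ Nat.card ω.orbit := by
    intro ω
    have h4 : ω.orbit = MulAction.orbit E ω.out := MulAction.orbitRel.Quotient.orbit_eq_orbit_out ω Quotient.out_eq'
    obtain ⟨n, hn⟩ := hp.card_orbit (ω.out)
    rw [h4, hn]
    exact sq_le_two_pow_of_pow_two n
  have h4 : Nat.card Ω = ∑ ω : MulAction.orbitRel.Quotient E Ω, Nat.card ω.orbit := by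
    rw [← Nat.card_sigma]
    exact Nat.card_congr (MulAction.selfEquivSigmaOrbits' E Ω)
  rw [h4, ← Finset.prod_pow_eq_pow_sum]
  calc Nat.card E ^ 2 ≤ (∏ ω : MulAction.orbitRel.Quotient E Ω, Nat.card ω.orbit) ^ 2 := by gcongr
    _ = ∏ ω : MulAction.orbitRel.Quotient E Ω, Nat.card ω.orbit ^ 2 := by rw [Finset.prod_pow]
    _ ≤ _ := Finset.prod_le_prod (fun _ _ => Nat.zero_le _) (fun ω _ => h3 ω)

section

variable {G : Type u} [Group G] {α : MulAut G}

/-- an elementary abelian `2`-group of fixed points is small -/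
theorem card_sq_le_of_fixed [Finite G] (h2 : ∀ x, α (α x) = x) (hG : Full α)
    (hZ : Subgroup.center G = ⊥) (A : Subgroup G) (hA : ∀ a ∈ A, α a = a) (hsq : ∀ a ∈ A, a * a = 1) :
    Nat.card A ^ 2 ≤ 2 ^ (Nat.card (J α) - 1) := by
  classical
  let Ω := {x : J α // (x : G) ≠ 1}
  have hmem : ∀ (a : A) (x : Ω), (a : G) * (x : J α) * (a : G)⁻¹ ∈ J α := by
    intro a x
    apply conj_mem_J _ (x : J α).2
    rw [hA a a.2, inv_mul_cancel]
    exact Subgroup.one_mem _
  let _ : MulAction A Ω :=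
    { smul := fun a x => ⟨⟨(a : G) * (x : J α) * (a : G)⁻¹, hmem a x⟩, by
        intro h
        apply x.2
        have h3 : (a : G) * (x : J α) * (a : G)⁻¹ = 1 := h
        have h4 : ((x : J α) : G) = (a : G)⁻¹ * ((a : G) * (x : J α) * (a : G)⁻¹) * a := by group
        rw [h4, h3]; group⟩
      one_smul := fun x => by
        apply Subtype.ext
        apply Subtype.ext
        change ((1 : A) : G) * (x : J α) * ((1 : A) : G)⁻¹ = (x : J α)
        simp
      mul_smul := fun a b x => by
        apply Subtype.ext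
        apply Subtype.ext
        change ((a * b : A) : G) * (x : J α) * ((a * b : A) : G)⁻¹ =
          (a : G) * ((b : G) * (x : J α) * (b : G)⁻¹) * (a : G)⁻¹
        rw [Subgroup.coe_mul]; group }
  have hsmul : ∀ (a : A) (x : Ω), (((a • x : Ω) : J α) : G) = (a : G) * (x : J α) * (a : G)⁻¹ := fun _ _ => rfl
  have : FaithfulSMul A Ω := ⟨by
    intro a b hab
    have h1 : (a : G)⁻¹ * b ∈ Subgroup.center G := by
      apply mem_center_of_commute h2 hG
      intro x hx
      by_cases hx1 : x = 1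
      · rw [hx1]; simp
      · have h3 := congrArg (fun t : Ω => ((t : J α) : G)) (hab ⟨⟨x, hx⟩, hx1⟩)
        simp only [hsmul] at h3
        calc x * ((a : G)⁻¹ * b) = (a : G)⁻¹ * (a * x * (a : G)⁻¹) * b := by group
          _ = (a : G)⁻¹ * (b * x * (b : G)⁻¹) * b := by rw [h3]
          _ = (a : G)⁻¹ * b * x := by group
    rw [hZ, Subgroup.mem_bot] at h1
    exact Subtype.ext (inv_mul_eq_one.1 h1)⟩
  have h3 := card_sq_le A Ω (fun e => Subtype.ext (hsq e e.2))
  have h4 : Nat.card Ω = Nat.card (J α) - 1 := by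
    have h5 : Nat.card (J α) = Nat.card {x : J α // (x : G) = 1} + Nat.card Ω := by
      rw [← Nat.card_sum]
      exact Nat.card_congr (Equiv.sumCompl (fun x : J α => (x : G) = 1)).symm
    have h6 : Nat.card {x : J α // (x : G) = 1} = 1 := by
      rw [Nat.card_eq_one_iff_unique]
      refine ⟨⟨fun x y => Subtype.ext (Subtype.ext (x.2.trans y.2.symm))⟩, ⟨⟨⟨1, one_mem_J α⟩, rfl⟩⟩⟩
    omega
  rwa [h4] at h3

/-- an `α`-invariant elementary abelian `2`-subgroup of a centreless group is small -/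
theorem card_le_of_sub [Finite G] (h2 : ∀ x, α (α x) = x) (hG : Full α)
    (hZ : Subgroup.center G = ⊥) (A : Subgroup G) (hA : ∀ a ∈ A, α a ∈ A) (hsq : ∀ a ∈ A, a * a = 1) :
    Nat.card A ≤ 2 ^ (Nat.card (J α) - 1) := by
  -- the fixed points in `A`
  have h1 := card_sq_le_of_fixed h2 hG hZ (A ⊓ fixed α) (fun a ha => ha.2) (fun a ha => hsq a ha.1)
  refine le_trans ?_ h1
  have h3 := card_eq_mul (α := ra h2 A hA)
  have h4 : Nat.card (fixed (ra h2 A hA)) ≤ Nat.card (A ⊓ fixed α : Subgroup G) := by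
    apply Nat.card_le_card_of_injective (fun x : fixed (ra h2 A hA) =>
      (⟨((x : A) : G), (x : A).2, congrArg (Subtype.val : A → G) x.2⟩ : (A ⊓ fixed α : Subgroup G)))
    intro x y h
    apply Subtype.ext
    apply Subtype.ext
    have h3 := congrArg (Subtype.val : (A ⊓ fixed α : Subgroup G) → G) h
    exact h3
  have h5 : Nat.card (Set.range (cm (ra h2 A hA))) ≤ Nat.card (A ⊓ fixed α : Subgroup G) := by
    apply Nat.card_le_card_of_injective (fun x : Set.range (cm (ra h2 A hA)) =>
      (⟨((x : A) : G), (x : A).2, ?_⟩ : (A ⊓ fixed α : Subgroup G)))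
    · intro x y h
      apply Subtype.ext
      apply Subtype.ext
      have h3 := congrArg (Subtype.val : (A ⊓ fixed α : Subgroup G) → G) h
      exact h3
    · obtain ⟨x, ⟨c, hc⟩⟩ := x
      have h5 : α (x : G) = (x : G)⁻¹ := by
        have h6 := cm_inv (ra_ra h2 A hA) c
        rw [hc] at h6
        exact congrArg Subtype.val h6
      change α (x : G) = x
      rw [h5]
      exact (eq_inv_of_mul_eq_one_left (hsq x x.2)).symm
  rw [h3, pow_two]
  exact Nat.mul_le_mul h5 h4

end

end Cfsg.Agent.H481.Inv
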