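import Cfsg.Agent.H481.InvBound

/-!
# Fibres of `J(G) → J(G/N)`

`commute_of_unique` (Lemma U): if `x ∈ J` is the only element of `J` in `x N`, then `x` centralizes `N`.
`card_J_mul_le` : `|J(G/N)| |J(Q)| ≤ |J(G)|` for `Q ≤ N` normal of odd order.
`two_mul_card_J_le` : `2 |J(G/N)| ≤ |J(G)| + |{x̄ ∈ J(G/N) : x̄ lifts to an element of J centralizing N}|`.
-/

set_option autoImplicit false

namespace Cfsg.Agent.H481.Inv

open Cfsg Cfsg.Agent.Lib.Cores

universe u

section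

variable {G : Type u} [Group G] {α : MulAut G}

/-- uniqueness passes to the square -/
theorem unique_sq {N : Subgroup G} (hNn : N.Normal) {x : G}
    (hx : x ∈ J α) (huniq : ∀ y ∈ J α, x⁻¹ * y ∈ N → y = x) :
    ∀ y ∈ J α, (x ^ 2)⁻¹ * y ∈ N → y = x ^ 2 := by
  intro y hy hxy
  obtain ⟨l, hl⟩ := hx.1.mul hy.1
  have hx1 : x ^ (2 * (l + 1)) = x := by
    have : 2 * (l + 1) = orderOf x * orderOf y + 1 := by omega
    rw [this, pow_succ, pow_mul, pow_orderOf_eq_one, one_pow, one_mul]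
  have hy1 : y ^ (2 * (l + 1)) = y := by
    have : 2 * (l + 1) = orderOf y * orderOf x + 1 := by rw [mul_comm (orderOf y)]; omega
    rw [this, pow_succ, pow_mul, pow_orderOf_eq_one, one_pow, one_mul]
  have h1 : y ^ (l + 1) = x := by
    apply huniq _ (pow_mem_J α hy _)
    rw [← QuotientGroup.eq] at hxy ⊢
    have h3 : ((y ^ (l + 1) : G) : G ⧸ N) = (y : G ⧸ N) ^ (l + 1) := rfl
    rw [h3, ← hxy]
    have h4 : ((x ^ 2 : G) : G ⧸ N) ^ (l + 1) = (((x ^ 2) ^ (l + 1) : G) : G ⧸ N) := rfl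
    rw [h4, ← pow_mul, hx1]
  rw [← h1, ← pow_mul, mul_comm (l + 1) 2, hy1]

/-- the basic computation -/
theorem key_unique [Finite G] (h2 : ∀ x, α (α x) = x) {N : Subgroup G} (hNn : N.Normal)
    (hN : ∀ x ∈ N, α x ∈ N) {x : G} (hx : x ∈ J α) (huniq : ∀ y ∈ J α, x⁻¹ * y ∈ N → y = x) {n : G}
    (hn : n ∈ N) : Commute (x⁻¹ * n * x * (α n)⁻¹) x := by
  obtain ⟨e, he⟩ := exists_oddExp (n := Nat.card G) Nat.card_pos.ne'
  obtain ⟨h, hhJ, hhx, hcm, _⟩ := exists_sqrt hx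
  set y := cm α (n * h) with hy
  have hyeq : y = n * x * (α n)⁻¹ := by
    rw [hy, cm, map_mul, mul_inv_rev]
    have : h * (α h)⁻¹ = x := hcm
    calc n * h * ((α h)⁻¹ * (α n)⁻¹) = n * (h * (α h)⁻¹) * (α n)⁻¹ := by group
      _ = n * x * (α n)⁻¹ := by rw [this]
  have hyinv : α y = y⁻¹ := cm_inv h2 _
  have hyJ : y ^ e ∈ J α := ⟨he.odd pow_card_eq_one', by rw [map_pow, hyinv, inv_pow]⟩
  have hxe : x ^ e = x := he.eq_self pow_card_eq_one' hx.1
  have hmem : x⁻¹ * y ^ e ∈ N := by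
    have := hNn
    rw [← QuotientGroup.eq]
    have h3 : (y : G ⧸ N) = (x : G ⧸ N) := by
      rw [QuotientGroup.eq, hyeq]
      have : (n * x * (α n)⁻¹)⁻¹ * x = α n * (x⁻¹ * n⁻¹ * x) := by group
      rw [this]
      apply N.mul_mem (hN n hn)
      have := hNn.conj_mem n⁻¹ (N.inv_mem hn) x⁻¹
      simpa using this
    have h4 : ((y ^ e : G) : G ⧸ N) = (y : G ⧸ N) ^ e := rfl
    rw [h4, h3]
    have h5 : (x : G ⧸ N) ^ e = ((x ^ e : G) : G ⧸ N) := rfl
    rw [h5, hxe]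
  have hye : y ^ e = x := huniq _ hyJ hmem
  have hcomm : Commute y x := by
    rw [← hye]; exact (Commute.refl y).pow_right e
  have h6 : x⁻¹ * n * x * (α n)⁻¹ = x⁻¹ * y := by rw [hyeq]; group
  rw [h6]
  exact (Commute.refl x).inv_left.mul_left hcomm

/-- **Lemma U.** If `x` is the only element of `J` in the coset `x N`, then `x` centralizes `N`. -/
theorem commute_of_unique [Finite G] (h2 : ∀ x, α (α x) = x) {N : Subgroup G} (hNn : N.Normal)
    (hN : ∀ x ∈ N, α x ∈ N) {x : G} (hx : x ∈ J α) (huniq : ∀ y ∈ J α, x⁻¹ * y ∈ N → y = x) :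
    ∀ n ∈ N, Commute n x := by
  -- `z n = n α(n)⁻¹` commutes with `x`
  have hz : ∀ n ∈ N, Commute (n * (α n)⁻¹) x := by
    intro n hn
    have k1 := key_unique h2 hNn hN hx huniq hn
    have k2' := key_unique h2 hNn hN (pow_mem_J α hx 2) (unique_sq hNn hx huniq) hn
    set a := x⁻¹ * n * x * (α n)⁻¹ with ha
    set b := (x ^ 2)⁻¹ * n * x ^ 2 * (α n)⁻¹ with hb
    have k2 : Commute b x := by
      obtain ⟨k, hk⟩ := hx.1
      have hxk : (x ^ 2) ^ (k + 1) = x := by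
        rw [← pow_mul, show 2 * (k + 1) = (2 * k + 1) + 1 by ring, pow_succ, ← hk, pow_orderOf_eq_one, one_mul]
      have := k2'.pow_right (k + 1)
      rw [hxk] at this
      exact this
    have hba : b * a⁻¹ = x⁻¹ * (x⁻¹ * n * x * n⁻¹) * x := by
      rw [hb, ha]; group
    have cba : Commute (b * a⁻¹) x := k2.mul_left k1.inv_left
    have cc : Commute (x⁻¹ * n * x * n⁻¹) x := by
      rw [hba] at cba
      have h7 : x * (x⁻¹ * (x⁻¹ * n * x * n⁻¹) * x) * x⁻¹ = x⁻¹ * n * x * n⁻¹ := by group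
      have h8 : Commute (x * (x⁻¹ * (x⁻¹ * n * x * n⁻¹) * x) * x⁻¹) x :=
        ((Commute.refl x).mul_left cba).mul_left (Commute.refl x).inv_left
      rwa [h7] at h8
    have h9 : n * (α n)⁻¹ = (x⁻¹ * n * x * n⁻¹)⁻¹ * a := by rw [ha]; group
    rw [h9]
    exact cc.inv_left.mul_left k1
  -- conjugates of `z s` commute with `x`
  have hzc : ∀ n ∈ N, ∀ s ∈ N, Commute (n * (s * (α s)⁻¹) * n⁻¹) x := by
    intro n hn s hs
    have h1 := hz (n * s) (N.mul_mem hn hs)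
    have h3 : n * (s * (α s)⁻¹) * n⁻¹ = (n * s * (α (n * s))⁻¹) * (n * (α n)⁻¹)⁻¹ := by
      rw [map_mul]; group
    rw [h3]
    exact h1.mul_left (hz n hn).inv_left
  obtain ⟨h, hhJ, hhx, hcm, hhz⟩ := exists_sqrt hx
  obtain ⟨i, hi⟩ := hhz
  intro n hn
  set w := n * x * n⁻¹ * x⁻¹ with hw
  set z := n * (α n)⁻¹ with hzd
  have hzx : Commute z x := hz n hn
  -- `w` commutes with `z`
  have hwz : Commute w z := by
    have h1 := hzc n⁻¹ (N.inv_mem hn) n hn
    have h3 : Commute z (n * x * n⁻¹) := by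
      have h4 := h1.map (MulAut.conj n).toMonoidHom
      have e1 : (MulAut.conj n).toMonoidHom (n⁻¹ * (n * (α n)⁻¹) * n⁻¹⁻¹) = z := by
        change n * (n⁻¹ * (n * (α n)⁻¹) * n⁻¹⁻¹) * n⁻¹ = z
        rw [hzd]; group
      rw [e1] at h4
      exact h4
    rw [hw]
    exact (h3.symm).mul_left (hzx.symm.inv_left)
  have hzh : Commute z h := by
    rw [← hi]; exact hzx.zpow_right i
  have hxh : Commute x h := by
    rw [← hi]; exact (Commute.refl x).zpow_right i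
  have hαh : α h = h⁻¹ := hhJ.2
  have hαn : α n = z⁻¹ * n := by rw [hzd]; group
  -- `w z` commutes with `x`
  have hwzx : Commute (w * z) x := by
    have hn' : h⁻¹ * n * h ∈ N := by
      have := hNn.conj_mem n hn h⁻¹
      simpa using this
    have h1 := hz _ hn'
    have h3 : h⁻¹ * n * h * (α (h⁻¹ * n * h))⁻¹ = h⁻¹ * (w * z) * h := by
      rw [map_mul, map_mul, map_inv, hαh, hαn, inv_inv]
      have h5 : z * h⁻¹ = h⁻¹ * z := hzh.inv_right.eq
      have h6 : z * x = x * z := hzx.eq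
      calc h⁻¹ * n * h * (h * (z⁻¹ * n) * h⁻¹)⁻¹ = h⁻¹ * n * (h * h) * n⁻¹ * (z * h⁻¹) := by group
        _ = h⁻¹ * n * x * n⁻¹ * (h⁻¹ * z) := by rw [hhx, h5]
        _ = h⁻¹ * (n * x * n⁻¹ * x⁻¹) * (x * h⁻¹) * z := by group
        _ = h⁻¹ * w * h * z := by rw [← hw, show x * h⁻¹ = h by rw [← hhx]; group]
        _ = h⁻¹ * w * (h * z) := by group
        _ = h⁻¹ * w * (z * h) := by rw [hzh.eq]
        _ = h⁻¹ * (w * z) * h := by group
    rw [h3] at h1
    have h7 : Commute (h * (h⁻¹ * (w * z) * h) * h⁻¹) x :=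
      (hxh.symm.mul_left h1).mul_left hxh.symm.inv_left
    have h8 : h * (h⁻¹ * (w * z) * h) * h⁻¹ = w * z := by group
    rwa [h8] at h7
  have hwx : Commute w x := by
    have h9 : w = (w * z) * z⁻¹ := by group
    rw [h9]
    exact hwzx.mul_left hzx.inv_left
  have hnx : n * x * n⁻¹ = w * x := by rw [hw]; group
  have hwinv : α w = w⁻¹ := by
    have h3 : n * x⁻¹ * n⁻¹ = x⁻¹ * w⁻¹ := by
      have : n * x⁻¹ * n⁻¹ = (n * x * n⁻¹)⁻¹ := by group
      rw [this, hnx, mul_inv_rev]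
    have h1 : α w = z⁻¹ * (n * x⁻¹ * n⁻¹) * z * x := by
      rw [hw]
      simp only [map_mul, map_inv, hαn, hx.2, inv_inv, mul_inv_rev]
      group
    rw [h1, h3]
    have e1 : z⁻¹ * (x⁻¹ * w⁻¹) = (x⁻¹ * w⁻¹) * z⁻¹ :=
      ((hzx.inv_left.inv_right).mul_right (hwz.symm.inv_left.inv_right)).eq
    rw [e1]
    have e2 : x⁻¹ * w⁻¹ = w⁻¹ * x⁻¹ := (hwx.symm.inv_left.inv_right).eq
    calc x⁻¹ * w⁻¹ * z⁻¹ * z * x = x⁻¹ * w⁻¹ * x := by group
      _ = w⁻¹ * x⁻¹ * x := by rw [e2]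
      _ = w⁻¹ := by group
  have hwodd : Odd (orderOf w) := by
    apply Odd.of_dvd_nat hx.1
    apply orderOf_dvd_of_pow_eq_one
    have h1 : (w * x) ^ orderOf x = 1 := by
      rw [← hnx, conj_pow, pow_orderOf_eq_one]; group
    rw [hwx.mul_pow, pow_orderOf_eq_one, mul_one] at h1
    exact h1
  have hwN : w ∈ N := by
    have h1 : w = n * (x * n⁻¹ * x⁻¹) := by rw [hw]; group
    rw [h1]
    exact N.mul_mem hn (hNn.conj_mem _ (N.inv_mem hn) x)
  have hxw : x * w ∈ J α := by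
    refine ⟨?_, ?_⟩
    · exact Odd.of_dvd_nat (hx.1.mul hwodd) hwx.symm.orderOf_mul_dvd_mul_orderOf
    · rw [map_mul, hx.2, hwinv, ← mul_inv_rev, hwx.eq]
  have h3 : x * w = x := huniq _ hxw (by simpa using hwN)
  have hw1 : w = 1 := by simpa using h3
  rw [hw1, one_mul] at hnx
  change n * x = x * n
  calc n * x = n * x * n⁻¹ * n := by group
    _ = x * n := by rw [hnx]

/-! ### Counting -/

/-- the elements of `J` in `N` -/
def JN (α : MulAut G) (N : Subgroup G) : Set G := {x | x ∈ J α ∧ x ∈ N}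

theorem card_JN_le [Finite G] (N : Subgroup G) : Nat.card (JN α N) ≤ Nat.card (J α) :=
  Nat.card_le_card_of_injective (fun x : JN α N => (⟨x.1, x.2.1⟩ : J α))
    (fun _ _ h => Subtype.ext (congrArg (Subtype.val : J α → G) h))

theorem card_J_ra (h2 : ∀ x, α (α x) = x) (N : Subgroup G) (hN : ∀ x ∈ N, α x ∈ N) :
    Nat.card (J (ra h2 N hN)) = Nat.card (JN α N) := by
  apply Nat.card_congr
  refine ⟨fun x => ⟨((x : N) : G), ⟨?_, congrArg (Subtype.val : N → G) x.2.2⟩, (x : N).2⟩,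
    fun x => ⟨⟨x.1, x.2.2⟩, ?_, Subtype.ext x.2.1.2⟩, fun x => rfl, fun x => rfl⟩
  · rw [Subgroup.orderOf_coe]; exact x.2.1
  · rw [← Subgroup.orderOf_coe]; exact x.2.1.1

theorem one_mem_JN (N : Subgroup G) : (1 : G) ∈ JN α N := ⟨one_mem_J α, N.one_mem⟩

theorem card_JN_pos [Finite G] (N : Subgroup G) : 0 < Nat.card (JN α N) := by
  have : Nonempty (JN α N) := ⟨⟨1, one_mem_JN N⟩⟩
  exact Nat.card_pos

/-- an element with an odd power in a subgroup of odd order has odd order -/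
theorem odd_of_pow_mem [Finite G] {Q : Subgroup G} (hQ : Odd (Nat.card Q)) {y : G} {r : ℕ} (hr : Odd r)
    (hy : y ^ r ∈ Q) : Odd (orderOf y) := by
  apply Odd.of_dvd_nat (hr.mul hQ)
  apply orderOf_dvd_of_pow_eq_one
  rw [pow_mul]
  have h1 := pow_card_eq_one' (x := (⟨y ^ r, hy⟩ : Q))
  exact congrArg (Subtype.val : Q → G) h1

/-- `h j h ∈ J` for `h ∈ J` and `j ∈ J ∩ Q`, `Q` normal of odd order -/
theorem mul_mul_mem_J [Finite G] {Q : Subgroup G} (hQn : Q.Normal) (hQ : Odd (Nat.card Q)) {h j : G}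
    (hh : h ∈ J α) (hj : j ∈ J α) (hjQ : j ∈ Q) : h * j * h ∈ J α := by
  refine ⟨?_, ?_⟩
  · apply odd_of_pow_mem hQ hh.1
    rw [← QuotientGroup.eq_one_iff]
    have h1 : ((h * j * h : G) : G ⧸ Q) = (h * h : G) := by
      rw [QuotientGroup.eq]
      have := hQn.conj_mem j⁻¹ (Q.inv_mem hjQ) h⁻¹
      have e : (h * j * h)⁻¹ * (h * h) = h⁻¹ * j⁻¹ * h⁻¹⁻¹ := by group
      rw [e]; exact this
    have h3 : (((h * j * h) ^ orderOf h : G) : G ⧸ Q) = ((h * j * h : G) : G ⧸ Q) ^ orderOf h := rfl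
    rw [h3, h1]
    have h4 : ((h * h : G) : G ⧸ Q) ^ orderOf h = (((h * h) ^ orderOf h : G) : G ⧸ Q) := rfl
    rw [h4, (Commute.refl h).mul_pow, pow_orderOf_eq_one, one_mul]
    rfl
  · rw [map_mul, map_mul, hh.2, hj.2]; group

theorem card_J_mul_le [Finite G] (h2 : ∀ x, α (α x) = x) {N Q : Subgroup G} [N.Normal] (hQn : Q.Normal)
    (hQ : Odd (Nat.card Q)) (hQN : Q ≤ N) (hN : N.map α.toMonoidHom = N) :
    Nat.card (J (qa α N hN)) * Nat.card (JN α Q) ≤ Nat.card (J α) := by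
  have hlift : ∀ x : J (qa α N hN), ∃ h : G, h ∈ J α ∧ ((h * h : G) : G ⧸ N) = x := by
    rintro ⟨x, hx⟩
    obtain ⟨y, hy, rfl⟩ := exists_lift h2 hN hx
    obtain ⟨h, hh, hhy, _⟩ := exists_sqrt hy
    exact ⟨h, hh, by rw [hhy]⟩
  choose L hL1 hL2 using hlift
  rw [← Nat.card_prod]
  apply Nat.card_le_card_of_injective
    (fun p : J (qa α N hN) × JN α Q => (⟨L p.1 * p.2 * L p.1, mul_mul_mem_J hQn hQ (hL1 p.1) p.2.2.1 p.2.2.2⟩ : J α))
  have hproj : ∀ p : J (qa α N hN) × JN α Q, ((L p.1 * p.2 * L p.1 : G) : G ⧸ N) = p.1 := by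
    intro p
    rw [← hL2 p.1, QuotientGroup.eq]
    have h1 : (L p.1 * ↑p.2 * L p.1)⁻¹ * (L p.1 * L p.1) = (L p.1)⁻¹ * (↑p.2)⁻¹ * (L p.1)⁻¹⁻¹ := by group
    rw [h1]
    exact hQN (hQn.conj_mem _ (Q.inv_mem p.2.2.2) _)
  intro p q hpq
  have h1 : L p.1 * p.2 * L p.1 = L q.1 * q.2 * L q.1 := congrArg (Subtype.val : J α → G) hpq
  have h3 : p.1 = q.1 := by
    apply Subtype.ext
    rw [← hproj p, ← hproj q, h1]
  refine Prod.ext h3 (Subtype.ext ?_)
  rw [h3] at h1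
  exact mul_left_cancel (mul_right_cancel h1)

/-- the elements of `J(G/N)` lifting to elements of `J` centralizing `N` -/
def JC (α : MulAut G) (N : Subgroup G) [N.Normal] (hN : N.map α.toMonoidHom = N) : Set (G ⧸ N) :=
  {x | x ∈ J (qa α N hN) ∧ ∃ y ∈ J α, (y : G ⧸ N) = x ∧ ∀ n ∈ N, Commute n y}

theorem two_mul_card_J_le [Finite G] (h2 : ∀ x, α (α x) = x) {N : Subgroup G} [N.Normal]
    (hN : N.map α.toMonoidHom = N) :
    2 * Nat.card (J (qa α N hN)) ≤ Nat.card (J α) + Nat.card (JC α N hN) := by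
  classical
  have hlift : ∀ x : J (qa α N hN), ∃ h : G, h ∈ J α ∧ (h : G ⧸ N) = x := by
    rintro ⟨x, hx⟩
    obtain ⟨y, hy, rfl⟩ := exists_lift h2 hN hx
    exact ⟨y, hy, rfl⟩
  choose L hL1 hL2 using hlift
  have hsec : ∀ x : {x : J (qa α N hN) // (x : G ⧸ N) ∉ JC α N hN}, ∃ y : G, y ∈ J α ∧ (y : G ⧸ N) = x ∧ y ≠ L x := by
    rintro ⟨x, hx⟩
    by_contra hcon
    push Not at hcon
    apply hx
    refine ⟨x.2, L x, hL1 x, hL2 x, ?_⟩
    apply commute_of_unique h2 inferInstance (fun z hz => apply_mem_of hN hz) (hL1 x)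
    intro y hy hxy
    apply hcon y hy
    rw [← QuotientGroup.eq, hL2] at hxy
    exact hxy.symm
  choose M hM1 hM2 hM3 using hsec
  have h1 : Nat.card (J (qa α N hN)) = Nat.card {x : J (qa α N hN) // (x : G ⧸ N) ∈ JC α N hN} +
      Nat.card {x : J (qa α N hN) // (x : G ⧸ N) ∉ JC α N hN} := by
    rw [← Nat.card_sum]
    exact Nat.card_congr (Equiv.sumCompl (fun x : J (qa α N hN) => (x : G ⧸ N) ∈ JC α N hN)).symm
  have h3 : Nat.card {x : J (qa α N hN) // (x : G ⧸ N) ∈ JC α N hN} ≤ Nat.card (JC α N hN) := by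
    apply Nat.card_le_card_of_injective
      (fun x : {x : J (qa α N hN) // (x : G ⧸ N) ∈ JC α N hN} => (⟨x.1.1, x.2⟩ : JC α N hN))
    intro x y h
    apply Subtype.ext
    apply Subtype.ext
    have h4 := congrArg (Subtype.val : JC α N hN → G ⧸ N) h
    exact h4
  have h5 : Nat.card (J (qa α N hN)) + Nat.card {x : J (qa α N hN) // (x : G ⧸ N) ∉ JC α N hN} ≤
      Nat.card (J α) := by
    rw [← Nat.card_sum]
    apply Nat.card_le_card_of_injective
      (fun s : J (qa α N hN) ⊕ {x : J (qa α N hN) // (x : G ⧸ N) ∉ JC α N hN} =>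
        (Sum.elim (fun x => (⟨L x, hL1 x⟩ : J α)) (fun x => (⟨M x, hM1 x⟩ : J α)) s))
    rintro (x | x) (y | y) h
    · have h4 : L x = L y := congrArg (Subtype.val : J α → G) h
      have : x = y := by apply Subtype.ext; rw [← hL2 x, ← hL2 y, h4]
      rw [this]
    · exfalso
      have h4 : L x = M y := congrArg (Subtype.val : J α → G) h
      have h6 : x = y.1 := by apply Subtype.ext; rw [← hL2 x, ← hM2 y, h4]
      exact hM3 y (by rw [← h4, h6])
    · exfalso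
      have h4 : M x = L y := congrArg (Subtype.val : J α → G) h
      have h6 : y = x.1 := by apply Subtype.ext; rw [← hL2 y, ← hM2 x, h4]
      exact hM3 x (by rw [h4, h6])
    · have h4 : M x = M y := congrArg (Subtype.val : J α → G) h
      have : x = y := by
        apply Subtype.ext
        apply Subtype.ext
        rw [← hM2 x, ← hM2 y, h4]
      rw [this]
  omega

theorem card_JN_mul_le [Finite G] {C K : Subgroup G} (hCK : C ⊓ K = ⊥)
    (hcomm : ∀ c ∈ C, ∀ k ∈ K, Commute c k) :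
    Nat.card (JN α C) * Nat.card (JN α K) ≤ Nat.card (J α) := by
  rw [← Nat.card_prod]
  apply Nat.card_le_card_of_injective
    (fun p : JN α C × JN α K => (⟨p.1.1 * p.2.1, by
      have hc := hcomm _ p.1.2.2 _ p.2.2.2
      refine ⟨Odd.of_dvd_nat (p.1.2.1.1.mul p.2.2.1.1) hc.orderOf_mul_dvd_mul_orderOf, ?_⟩
      rw [map_mul, p.1.2.1.2, p.2.2.1.2, ← mul_inv_rev, hc.eq]⟩ : J α))
  intro p q hpq
  have h1 : p.1.1 * p.2.1 = q.1.1 * q.2.1 := congrArg (Subtype.val : J α → G) hpq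
  have h3 : q.1.1⁻¹ * p.1.1 = q.2.1 * p.2.1⁻¹ := by
    calc q.1.1⁻¹ * p.1.1 = q.1.1⁻¹ * (p.1.1 * p.2.1) * p.2.1⁻¹ := by group
      _ = q.1.1⁻¹ * (q.1.1 * q.2.1) * p.2.1⁻¹ := by rw [h1]
      _ = q.2.1 * p.2.1⁻¹ := by group
  have h4 : q.1.1⁻¹ * p.1.1 ∈ C ⊓ K :=
    ⟨C.mul_mem (C.inv_mem q.1.2.2) p.1.2.2, by rw [h3]; exact K.mul_mem q.2.2.2 (K.inv_mem p.2.2.2)⟩
  rw [hCK, Subgroup.mem_bot] at h4
  refine Prod.ext (Subtype.ext ?_) (Subtype.ext ?_)
  · exact (inv_mul_eq_one.1 h4).symm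
  · rw [h4] at h3
    exact (mul_inv_eq_one.1 h3.symm).symm

/-- `|G| = |J| |fixed|` for `G` of odd order -/
theorem card_odd [Finite G] (h2 : ∀ x, α (α x) = x) (hodd : Odd (Nat.card G)) :
    Nat.card G = Nat.card (J α) * Nat.card (fixed α) := by
  rw [card_eq_mul (α := α)]
  congr 1
  apply Nat.card_congr
  refine Equiv.subtypeEquivRight ?_
  intro x
  constructor
  · rintro ⟨g, rfl⟩
    exact ⟨Odd.of_dvd_nat hodd (orderOf_dvd_natCard _), cm_inv h2 g⟩
  · intro hx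
    exact J_subset_range hx

theorem card_fixed_ra_le [Finite G] (h2 : ∀ x, α (α x) = x) (N : Subgroup G) (hN : ∀ x ∈ N, α x ∈ N) :
    Nat.card (fixed (ra h2 N hN)) ≤ Nat.card (fixed α) := by
  apply Nat.card_le_card_of_injective (fun x : fixed (ra h2 N hN) =>
    (⟨((x : N) : G), congrArg (Subtype.val : N → G) x.2⟩ : fixed α))
  intro x y h
  apply Subtype.ext
  apply Subtype.ext
  have h3 := congrArg (Subtype.val : fixed α → G) h
  exact h3

/-- `|Q| ≤ |J ∩ Q| |fixed|` for `Q` of odd order -/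
theorem card_odd_sub_le [Finite G] (h2 : ∀ x, α (α x) = x) {Q : Subgroup G} (hQi : ∀ x ∈ Q, α x ∈ Q)
    (hQ : Odd (Nat.card Q)) : Nat.card Q ≤ Nat.card (JN α Q) * Nat.card (fixed α) := by
  rw [card_odd (ra_ra h2 Q hQi) hQ, card_J_ra h2 Q hQi]
  exact Nat.mul_le_mul le_rfl (card_fixed_ra_le h2 Q hQi)

/-- the number of fixed points does not grow in quotients -/
theorem card_fixed_qa_le [Finite G] {N : Subgroup G} [N.Normal] (hN : N.map α.toMonoidHom = N) :
    Nat.card (fixed (qa α N hN)) ≤ Nat.card (fixed α) := by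
  have h1 := card_eq_mul (α := α)
  have h3 := card_eq_mul (α := qa α N hN)
  -- `|range cm| ≤ |N| |range cm on the quotient|`
  have h4 : Nat.card (Set.range (cm α)) ≤ Nat.card N * Nat.card (Set.range (cm (qa α N hN))) := by
    have hL : ∀ x : Set.range (cm (qa α N hN)), ∃ y : G, (y : G ⧸ N) = x := fun x => QuotientGroup.mk_surjective _
    choose L hL using hL
    rw [← Nat.card_prod]
    have hmem : ∀ y : Set.range (cm α), ((y : G) : G ⧸ N) ∈ Set.range (cm (qa α N hN)) := by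
      rintro ⟨_, g, rfl⟩
      exact ⟨(g : G ⧸ N), rfl⟩
    apply Nat.card_le_card_of_injective (fun y : Set.range (cm α) =>
      ((⟨(L ⟨_, hmem y⟩)⁻¹ * y, by rw [← QuotientGroup.eq, hL]⟩ : N),
        (⟨_, hmem y⟩ : Set.range (cm (qa α N hN)))))
    intro x y hxy
    have h5 := congrArg Prod.snd hxy
    have h6 := congrArg (fun p : N × Set.range (cm (qa α N hN)) => (p.1 : G)) hxy
    simp only at h5 h6
    rw [h5] at h6
    exact Subtype.ext (mul_left_cancel h6)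
  have h5 : Nat.card G = Nat.card N * Nat.card (G ⧸ N) := (Subgroup.card_mul_index N).symm
  have hr : 0 < Nat.card (Set.range (cm (qa α N hN))) := by
    have : Nonempty (Set.range (cm (qa α N hN))) := ⟨⟨_, 1, rfl⟩⟩
    exact Nat.card_pos
  have hN0 : 0 < Nat.card N := Nat.card_pos
  have h6 : (Nat.card N * Nat.card (Set.range (cm (qa α N hN)))) * Nat.card (fixed (qa α N hN)) ≤
      (Nat.card N * Nat.card (Set.range (cm (qa α N hN)))) * Nat.card (fixed α) := by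
    calc (Nat.card N * Nat.card (Set.range (cm (qa α N hN)))) * Nat.card (fixed (qa α N hN))
        = Nat.card N * (Nat.card (Set.range (cm (qa α N hN))) * Nat.card (fixed (qa α N hN))) := by ring
      _ = Nat.card G := by rw [← h3, h5]
      _ = Nat.card (Set.range (cm α)) * Nat.card (fixed α) := h1
      _ ≤ _ := Nat.mul_le_mul h4 le_rfl
  exact Nat.le_of_mul_le_mul_left h6 (Nat.mul_pos hN0 hr)

/-- a normal subgroup fixed pointwise is central when `[G, α] = G` -/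
theorem le_center_of_fixed (hG : Full α) {N : Subgroup G} (hNn : N.Normal) (hfix : ∀ n ∈ N, α n = n) :
    N ≤ Subgroup.center G := by
  intro n hn
  rw [Subgroup.mem_center_iff]
  have h1 : Subgroup.closure (Set.range (fun c : G => c * (α c)⁻¹)) ≤ Subgroup.centralizer {n} := by
    rw [Subgroup.closure_le]
    rintro _ ⟨c, rfl⟩
    rw [SetLike.mem_coe, Subgroup.mem_centralizer_singleton_iff]
    have h3 := hfix _ (hNn.conj_mem n hn c⁻¹)
    have hn' := hfix n hn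
    rw [map_mul, map_mul, map_inv, map_inv, hn', map_inv, inv_inv, inv_inv] at h3
    -- `α(c)⁻¹ n α(c) = c⁻¹ n c`
    calc c * (α c)⁻¹ * n = c * ((α c)⁻¹ * n * α c) * (α c)⁻¹ := by group
      _ = c * (c⁻¹ * n * c) * (α c)⁻¹ := by rw [h3]
      _ = n * (c * (α c)⁻¹) := by group
  have hG' := hG
  rw [Full] at hG'
  rw [hG'] at h1
  intro g
  exact Subgroup.mem_centralizer_singleton_iff.1 (h1 (Subgroup.mem_top g))

/-- `|J ∩ N| ≥ 3` as soon as `J ∩ N` has a non-trivial element -/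
theorem three_le_card_JN [Finite G] {N : Subgroup G} {x : G} (hx : x ∈ JN α N) (hx1 : x ≠ 1) :
    3 ≤ Nat.card (JN α N) := by
  have hxi : x⁻¹ ≠ x := by
    intro h
    have h3 : x ^ 2 = 1 := by
      rw [pow_two]
      nth_rewrite 1 [← h]
      exact inv_mul_cancel x
    have h4 := (Nat.dvd_prime Nat.prime_two).1 (orderOf_dvd_of_pow_eq_one h3)
    rcases h4 with h4 | h4
    · exact hx1 (orderOf_eq_one_iff.1 h4)
    · have := hx.1.1
      rw [h4] at this
      exact absurd this (by decide)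
  have h1 : ({1, x, x⁻¹} : Set G).ncard = 3 := by
    rw [Set.ncard_eq_three]
    refine ⟨1, x, x⁻¹, hx1.symm, ?_, hxi.symm, rfl⟩
    intro h
    exact hx1 (inv_eq_one.1 h.symm)
  have h3 : ({1, x, x⁻¹} : Set G) ⊆ JN α N := by
    intro y hy
    simp only [Set.mem_insert_iff, Set.mem_singleton_iff] at hy
    rcases hy with rfl | rfl | rfl
    · exact one_mem_JN N
    · exact hx
    · exact ⟨inv_mem_J α hx.1, N.inv_mem hx.2⟩
  have h4 := Set.ncard_le_ncard h3 (Set.toFinite _)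
  rw [h1] at h4
  exact h4

/-- either `|J ∩ Q| ≥ 3` or `α` fixes the odd order group `Q` pointwise -/
theorem odd_dichotomy [Finite G] (h2 : ∀ x, α (α x) = x) {Q : Subgroup G} (hQi : ∀ x ∈ Q, α x ∈ Q)
    (hQ : Odd (Nat.card Q)) : 3 ≤ Nat.card (JN α Q) ∨ ∀ q ∈ Q, α q = q := by
  by_cases h : ∃ x ∈ JN α Q, x ≠ 1
  · obtain ⟨x, hx, hx1⟩ := h
    exact Or.inl (three_le_card_JN hx hx1)
  · right
    push Not at h
    intro q hq
    have h1 : q * (α q)⁻¹ ∈ JN α Q := by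
      refine ⟨⟨?_, cm_inv h2 q⟩, Q.mul_mem hq (Q.inv_mem (hQi q hq))⟩
      have h3 : q * (α q)⁻¹ ∈ Q := Q.mul_mem hq (Q.inv_mem (hQi q hq))
      have h4 : orderOf (q * (α q)⁻¹) ∣ Nat.card Q := by
        have := orderOf_dvd_natCard (⟨_, h3⟩ : Q)
        rwa [← Subgroup.orderOf_coe] at this
      exact Odd.of_dvd_nat hQ h4
    have h5 := h _ h1
    exact (mul_inv_eq_one.1 h5).symm

end

end Cfsg.Agent.H481.Inv
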