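import Cfsg.Agent.H481.MainRed
import Cfsg.Agent.H481.TBound
import Cfsg.Agent.H446.TwoAutNil
import Cfsg.Agent.H446.TopBound

/-!
# `[G : F(G)] < (m!)⁴` from `|T| < |C_T(α)|³`

`fitting_index_lt` : S3929 modulo `|T| < |C_T(α)|³` for involutory automorphisms of non-abelian simple groups `T`
(S5721) and `2 ^ |Out T| ≤ |T : H|³` (S5879).
-/

set_option autoImplicit false

namespace Cfsg.Agent.H481.Final

open Cfsg Cfsg.Agent.H481.Inv Cfsg.Agent.H481.SolPart Cfsg.Agent.H934.OutB

universe u

theorem autBound : AutBound.{u} := by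
  intro Q _ _ hnil hodd S hS
  exact Cfsg.Agent.H446.TwoAutNil.two_group_card_le hnil hodd S hS

theorem topBound
    (hC : ∀ (T : Type u) [Group T] [Finite T] [IsSimpleGroup T], ¬ IsMulCommutative T →
      ∀ α : MulAut T, orderOf α = 2 → Nat.card T < Nat.card {t : T // α t = t} ^ 3)
    (hB : ∀ (T : Type u) [Group T] [Finite T] [IsSimpleGroup T], ¬ IsMulCommutative T → Bd T) :
    TopBound.{u} := by
  intro X _ _ hF α h2
  exact Cfsg.Agent.H446.TopBound.top_bound hF α h2
    (fun T _ _ _ hna β hβ => TBound.aut_le hna (hB T hna) (hC T hna) β hβ)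
    (fun T _ _ _ hna => TBound.aut_sq_le hna (hB T hna))

/-- **S3929** modulo the bound for simple groups. -/
theorem fitting_index_lt
    (hC : ∀ (T : Type u) [Group T] [Finite T] [IsSimpleGroup T], ¬ IsMulCommutative T →
      ∀ α : MulAut T, orderOf α = 2 → Nat.card T < Nat.card {t : T // α t = t} ^ 3)
    (hB : ∀ (T : Type u) [Group T] [Finite T] [IsSimpleGroup T], ¬ IsMulCommutative T → Bd T)
    {G : Type u} [Group G] [Finite G] [Nontrivial G] (α : MulAut G) (hα : orderOf α = 2)
    (hG : Subgroup.closure (Set.range (fun c : G => c * (α c)⁻¹)) = ⊤) :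
    (Cfsg.fittingSubgroup G).index <
      (Nat.card {g : G // Odd (orderOf g) ∧ α g = g⁻¹}).factorial ^ 4 := by
  have h2 : ∀ x, α (α x) = x := by
    intro x
    have h := pow_orderOf_eq_one α
    rw [hα, pow_two] at h
    exact congrArg (fun e : MulAut G => e x) h
  exact main (topBound hC hB) autBound _ G α h2 hG rfl

end Cfsg.Agent.H481.Final
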