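import Mathlib.Data.Nat.Factorial.DoubleFactorial
import Mathlib.Data.Nat.Factorial.Basic
import Mathlib.Data.Nat.Choose.Basic
import Mathlib.Tactic

/-!
# Inequalities between factorials used for S3929
-/

set_option autoImplicit false

namespace Cfsg.Agent.H481.Num

open Nat

theorem df_lt (k : ℕ) (hk : 0 < k) : (2 * k)‼ < (2 * k + 1)‼ := by
  induction k with
  | zero => omega
  | succ k ih =>
    rcases Nat.eq_zero_or_pos k with h | h
    · subst h; decide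
    · have h1 := ih h
      have e1 : (2 * (k + 1))‼ = (2 * k + 2) * (2 * k)‼ := by
        rw [show 2 * (k + 1) = 2 * k + 2 by ring, Nat.doubleFactorial_add_two]
      have e2 : (2 * (k + 1) + 1)‼ = (2 * k + 1 + 2) * (2 * k + 1)‼ := by
        rw [show 2 * (k + 1) + 1 = (2 * k + 1) + 2 by ring, Nat.doubleFactorial_add_two]
      rw [e1, e2]
      apply Nat.mul_lt_mul'' (by omega) h1

/-- `(2k)‼² < (2k+1)!` -/
theorem sq_lt (k : ℕ) (hk : 0 < k) : (2 * k)‼ ^ 2 < (2 * k + 1)! := by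
  rw [Nat.factorial_eq_mul_doubleFactorial, pow_two]
  exact Nat.mul_lt_mul_of_pos_right (df_lt k hk) (Nat.doubleFactorial_pos _)

theorem df_le_factorial (k : ℕ) : (2 * k)‼ ≤ (2 * k)! := by
  rcases Nat.eq_zero_or_pos k with h | h
  · subst h; decide
  · obtain ⟨n, hn⟩ : ∃ n, 2 * k = n + 1 := ⟨2 * k - 1, by omega⟩
    rw [hn, Nat.factorial_eq_mul_doubleFactorial]
    exact Nat.le_mul_of_pos_right _ (Nat.doubleFactorial_pos _)

theorem mul_le (k : ℕ) : (2 * k)‼ * (2 * k + 1) ≤ (2 * k + 1)! := by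
  rw [Nat.factorial_succ, mul_comm]
  exact Nat.mul_le_mul le_rfl (df_le_factorial k)

theorem df_le (k : ℕ) : (2 * k + 1)‼ ≤ (2 * k + 2)‼ := by
  induction k with
  | zero => decide
  | succ k ih =>
    have e1 : (2 * (k + 1) + 2)‼ = (2 * k + 2 + 2) * (2 * k + 2)‼ := by
      rw [show 2 * (k + 1) + 2 = 2 * k + 2 + 2 by ring, Nat.doubleFactorial_add_two]
    have e2 : (2 * (k + 1) + 1)‼ = (2 * k + 1 + 2) * (2 * k + 1)‼ := by
      rw [show 2 * (k + 1) + 1 = (2 * k + 1) + 2 by ring, Nat.doubleFactorial_add_two]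
    rw [e1, e2]
    exact Nat.mul_le_mul (by omega) ih

/-- `(2k)! ≤ (2k)‼²` -/
theorem factorial_le_sq (k : ℕ) (hk : 0 < k) : (2 * k)! ≤ (2 * k)‼ ^ 2 := by
  obtain ⟨j, rfl⟩ : ∃ j, k = j + 1 := ⟨k - 1, by omega⟩
  rw [show 2 * (j + 1) = (2 * j + 1) + 1 by ring, Nat.factorial_eq_mul_doubleFactorial, pow_two]
  exact Nat.mul_le_mul le_rfl (df_le j)

/-- the top case -/
theorem top (k : ℕ) (hk : 0 < k) : (2 * k)‼ * ((2 * k)! * (2 * k)‼ ^ 5) < ((2 * k + 1)!) ^ 4 := by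
  calc (2 * k)‼ * ((2 * k)! * (2 * k)‼ ^ 5) ≤ (2 * k)‼ * ((2 * k)‼ ^ 2 * (2 * k)‼ ^ 5) := by
        gcongr; exact factorial_le_sq k hk
    _ = ((2 * k)‼ ^ 2) ^ 4 := by ring
    _ < ((2 * k + 1)!) ^ 4 := Nat.pow_lt_pow_left (sq_lt k hk) (by norm_num)

theorem cube_le {a b : ℕ} (h : 3 * a ≤ b) : (a !) ^ 3 ≤ b ! := by
  have h1 : a ! * a ! ≤ (a + a)! := Nat.le_of_dvd (Nat.factorial_pos _) (Nat.factorial_mul_factorial_dvd_factorial_add a a)
  have h2 : (a + a)! * a ! ≤ (a + a + a)! :=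
    Nat.le_of_dvd (Nat.factorial_pos _) (Nat.factorial_mul_factorial_dvd_factorial_add (a + a) a)
  calc (a !) ^ 3 = (a ! * a !) * a ! := by ring
    _ ≤ (a + a)! * a ! := Nat.mul_le_mul h1 le_rfl
    _ ≤ (a + a + a)! := h2
    _ ≤ b ! := Nat.factorial_le (by omega)

/-- case A -/
theorem caseA (k a : ℕ) (hk : 0 < k) (h : 3 * a ≤ 2 * k + 1) :
    (2 * k)‼ ^ 3 * (2 * k + 1) ^ 2 * (a !) ^ 4 ≤ ((2 * k + 1)!) ^ 4 := by
  set m := 2 * k + 1 with hm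
  have h1 : (2 * k)‼ ^ 2 ≤ m ! := (sq_lt k hk).le
  have h2 : (2 * k)‼ * m ≤ m ! := mul_le k
  have h3 : (a !) ^ 3 ≤ m ! := cube_le h
  have h4 : m * a ! ≤ m ! := by
    rw [hm, Nat.factorial_succ]
    exact Nat.mul_le_mul le_rfl (Nat.factorial_le (by omega))
  calc (2 * k)‼ ^ 3 * m ^ 2 * (a !) ^ 4 = (2 * k)‼ ^ 2 * ((2 * k)‼ * m) * (m * a !) * (a !) ^ 3 := by ring
    _ ≤ m ! * m ! * m ! * m ! := by gcongr
    _ = (m !) ^ 4 := by ring

/-- `(a!)^b ≤ (b!)^a` for `a ≤ b` -/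
theorem factorial_pow_le {a b : ℕ} (h : a ≤ b) : (a !) ^ b ≤ (b !) ^ a := by
  induction b, h using Nat.le_induction with
  | base => exact le_rfl
  | succ b hb ih =>
    rw [pow_succ, Nat.factorial_succ, mul_pow, mul_comm]
    apply Nat.mul_le_mul _ ih
    calc a ! ≤ a ^ a := Nat.factorial_le_pow a
      _ ≤ (b + 1) ^ a := Nat.pow_le_pow_left (by omega) a

theorem five_le {a m : ℕ} (hm : 0 < m) (h : 5 * a ≤ 3 * m) : (a !) ^ 5 ≤ (m !) ^ 3 := by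
  have h1 : ((a !) ^ 5) ^ m ≤ ((m !) ^ 3) ^ m := by
    calc ((a !) ^ 5) ^ m = ((a !) ^ m) ^ 5 := by rw [← pow_mul, ← pow_mul, mul_comm]
      _ ≤ ((m !) ^ a) ^ 5 := Nat.pow_le_pow_left (factorial_pow_le (by omega)) 5
      _ = (m !) ^ (5 * a) := by rw [← pow_mul, mul_comm]
      _ ≤ (m !) ^ (3 * m) := Nat.pow_le_pow_right (Nat.factorial_pos _) h
      _ = ((m !) ^ 3) ^ m := by rw [← pow_mul]
  exact (Nat.pow_le_pow_iff_left hm.ne').1 h1

/-- case B1 -/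
theorem caseB (k a : ℕ) (h : 5 * a ≤ 3 * (2 * k + 1)) :
    a * (2 * k)‼ * (a !) ^ 4 ≤ ((2 * k + 1)!) ^ 4 := by
  have h1 : (a !) ^ 4 ≤ ((2 * k + 1)!) ^ 3 :=
    (Nat.pow_le_pow_right (Nat.factorial_pos _) (by norm_num)).trans (five_le (by omega) h)
  have h2 : a * (2 * k)‼ ≤ (2 * k + 1)! := by
    refine le_trans ?_ (mul_le k)
    rw [mul_comm]
    exact Nat.mul_le_mul le_rfl (by omega)
  calc a * (2 * k)‼ * (a !) ^ 4 ≤ (2 * k + 1)! * ((2 * k + 1)!) ^ 3 := Nat.mul_le_mul h2 h1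
    _ = ((2 * k + 1)!) ^ 4 := by ring

end Cfsg.Agent.H481.Num
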