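import Cfsg.Agent.Lib.Cores
import Mathlib.GroupTheory.Nilpotent

/-!
# The odd part of the Fitting subgroup

`Qf Y = O_{2'}(F(Y))`. `inf_centralizer_le` : `C_Y(Q) ∩ O_{2'...}`; `card_pCore_le` : `|O_2(Y/F(Y))| ≤ |Q|²`, given the
bound for `2`-groups of automorphisms of nilpotent groups of odd order.
-/

set_option autoImplicit false

namespace Cfsg.Agent.H481.SolPart

open Cfsg Subgroup Cfsg.Agent.Lib.Cores

universe u

variable {Y : Type u} [Group Y]

theorem fitting_le_sup [Finite Y] (p : ℕ) [Fact p.Prime] :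
    fittingSubgroup Y ≤ pCore p Y ⊔ (fittingSubgroup Y ⊓ pPrimeCore p Y) := by
  conv_lhs => rw [fittingSubgroup_eq_iSup_pCore]
  refine iSup_le fun q => ?_
  have := Fact.mk q.2
  by_cases hq : (q : ℕ) = p
  · rw [hq]; exact le_sup_left
  · refine le_trans (le_inf ?_ ?_) le_sup_right
    · exact pCore_le_fittingSubgroup _
    · apply le_pPrimeCore (pCore_normal _)
      obtain ⟨n, hn⟩ := IsPGroup.iff_card.mp (pCore_isPGroup (G := Y) (q : ℕ))
      rw [hn]
      exact Nat.Coprime.pow_left _ ((Nat.coprime_primes q.2 Fact.out).mpr hq)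

variable (Y) in
/-- `O_{2'}(F(Y))` -/
def Qf : Subgroup Y := fittingSubgroup Y ⊓ pPrimeCore 2 Y

theorem Qf_normal : (Qf Y).Normal := by
  have h1 := fittingSubgroup_normal (G := Y)
  have h2 := pPrimeCore_normal (G := Y) 2
  exact normal_inf_normal _ _

theorem Qf_le : Qf Y ≤ fittingSubgroup Y := inf_le_left

theorem Qf_odd [Finite Y] : Odd (Nat.card (Qf Y)) := by
  have h1 := pPrimeCore_coprime (G := Y) 2
  have h2 : (Nat.card (Qf Y)).Coprime 2 := h1.coprime_dvd_left (card_dvd_of_le inf_le_right)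
  exact Nat.coprime_two_right.1 h2

theorem Qf_nilpotent [Finite Y] : Group.IsNilpotent (Qf Y) :=
  (le_fittingSubgroup_iff Qf_normal).1 Qf_le

theorem apply_mem_fitting (e : Y ≃* Y) {x : Y} (hx : x ∈ fittingSubgroup Y) : e x ∈ fittingSubgroup Y := by
  rw [← map_equiv_fittingSubgroup e]
  exact ⟨x, hx, rfl⟩

theorem apply_mem_Qf (e : Y ≃* Y) {x : Y} (hx : x ∈ Qf Y) : e x ∈ Qf Y := by
  refine ⟨apply_mem_fitting e hx.1, ?_⟩
  rw [← map_equiv_pPrimeCore e 2]
  exact ⟨x, hx.2, rfl⟩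

theorem exists_pow_mem_Qf [Finite Y] {x : Y} (hx : x ∈ fittingSubgroup Y) : ∃ k : ℕ, x ^ 2 ^ k ∈ Qf Y := by
  have hF : Fact (Nat.Prime 2) := ⟨Nat.prime_two⟩
  have hQ := Qf_normal (Y := Y)
  have h1 := fitting_le_sup 2 hx
  obtain ⟨p, hp, q, hq, rfl⟩ := mem_sup_of_normal_right.1 h1
  obtain ⟨k, hk⟩ := pCore_isPGroup (G := Y) 2 ⟨p, hp⟩
  refine ⟨k, ?_⟩
  have hk' : p ^ 2 ^ k = 1 := congrArg Subtype.val hk
  rw [← QuotientGroup.eq_one_iff]
  have h2 : ((p * q : Y) : Y ⧸ Qf Y) = (p : Y ⧸ Qf Y) := by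
    rw [QuotientGroup.eq]
    have : (p * q)⁻¹ * p = p⁻¹ * 1 * p⁻¹⁻¹ * 1 * (p⁻¹ * (p * q⁻¹ * p⁻¹) * p) := by group
    rw [this]
    have h3 := hQ.conj_mem _ ((Qf Y).inv_mem hq) p
    have h4 := hQ.conj_mem _ h3 p⁻¹
    simpa using h4
  have h3 : (((p * q) ^ 2 ^ k : Y) : Y ⧸ Qf Y) = ((p * q : Y) : Y ⧸ Qf Y) ^ 2 ^ k := rfl
  rw [h3, h2]
  have h4 : (p : Y ⧸ Qf Y) ^ 2 ^ k = ((p ^ 2 ^ k : Y) : Y ⧸ Qf Y) := rfl
  rw [h4, hk']
  rfl

/-- `C(Q) ∩ O_{2}`-preimage lies in `F(Y)` -/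
theorem inf_centralizer_le [Finite Y] :
    (pCore 2 (Y ⧸ fittingSubgroup Y)).comap (QuotientGroup.mk' (fittingSubgroup Y)) ⊓
      centralizer (Qf Y : Set Y) ≤ fittingSubgroup Y := by
  have hF : Fact (Nat.Prime 2) := ⟨Nat.prime_two⟩
  have hQn := Qf_normal (Y := Y)
  set D := (pCore 2 (Y ⧸ fittingSubgroup Y)).comap (QuotientGroup.mk' (fittingSubgroup Y)) ⊓
      centralizer (Qf Y : Set Y) with hD
  have hDn : D.Normal := by
    have h1 : ((pCore 2 (Y ⧸ fittingSubgroup Y)).comap (QuotientGroup.mk' (fittingSubgroup Y))).Normal :=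
      inferInstance
    have h2 : (centralizer (Qf Y : Set Y)).Normal := inferInstance
    exact normal_inf_normal _ _
  apply le_fittingSubgroup hDn
  -- the map to `Y / Q`
  set f : D →* Y ⧸ Qf Y := (QuotientGroup.mk' (Qf Y)).comp D.subtype with hf
  have hker : f.rangeRestrict.ker ≤ center D := by
    intro d hd
    rw [MonoidHom.ker_rangeRestrict, MonoidHom.mem_ker] at hd
    have hdQ : (d : Y) ∈ Qf Y := (QuotientGroup.eq_one_iff _).1 hd
    rw [mem_center_iff]
    intro g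
    exact Subtype.ext (mem_centralizer_iff.1 g.2.2 _ hdQ).symm
  have hp : IsPGroup 2 f.range := by
    rintro ⟨_, d, rfl⟩
    -- `d ^ 2^a ∈ F`, then `∈ Q`
    obtain ⟨a, ha⟩ := pCore_isPGroup (G := Y ⧸ fittingSubgroup Y) 2 ⟨QuotientGroup.mk' (fittingSubgroup Y) d, d.2.1⟩
    have ha' : (((d : Y) ^ 2 ^ a : Y) : Y ⧸ fittingSubgroup Y) = 1 := congrArg Subtype.val ha
    rw [QuotientGroup.eq_one_iff] at ha'
    obtain ⟨b, hb⟩ := exists_pow_mem_Qf ha'
    refine ⟨a + b, ?_⟩
    apply Subtype.ext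
    have h1 : (((d : Y) ^ 2 ^ (a + b) : Y) : Y ⧸ Qf Y) = 1 := by
      rw [QuotientGroup.eq_one_iff, pow_add, pow_mul]
      exact hb
    exact h1
  have hnil : Group.IsNilpotent f.range := hp.isNilpotent
  exact Subgroup.isNilpotent_of_ker_le_center f.rangeRestrict hker

/-- `O_2(Y/F(Y)) = 1` if `Q` is central -/
theorem pCore_eq_bot [Finite Y] (h : Qf Y ≤ center Y) : pCore 2 (Y ⧸ fittingSubgroup Y) = ⊥ := by
  have h1 := inf_centralizer_le (Y := Y)
  have h2 : centralizer (Qf Y : Set Y) = ⊤ := by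
    rw [eq_top_iff]
    intro y _
    rw [mem_centralizer_iff]
    intro q hq
    exact (mem_center_iff.1 (h hq) y).symm
  rw [h2, inf_top_eq] at h1
  rw [eq_bot_iff]
  intro x hx
  obtain ⟨y, rfl⟩ := QuotientGroup.mk_surjective x
  rw [mem_bot, QuotientGroup.eq_one_iff]
  exact h1 hx

/-- the bound for `2`-groups of automorphisms -/
def AutBound : Prop := ∀ (Q : Type u) [Group Q] [Finite Q], Group.IsNilpotent Q → Odd (Nat.card Q) →
  ∀ S : Subgroup (MulAut Q), IsPGroup 2 S → Nat.card S ≤ Nat.card Q ^ 2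

/-- `|O_2(Y/F(Y))| ≤ |Q|²` -/
theorem card_pCore_le [Finite Y] (hA : AutBound.{u}) :
    Nat.card (pCore 2 (Y ⧸ fittingSubgroup Y)) ≤ Nat.card (Qf Y) ^ 2 := by
  have hF : Fact (Nat.Prime 2) := ⟨Nat.prime_two⟩
  have hQn := Qf_normal (Y := Y)
  obtain ⟨P⟩ := (inferInstance : Nonempty (Sylow 2 Y))
  set T : Subgroup Y := (P : Subgroup Y) ⊓
    (pCore 2 (Y ⧸ fittingSubgroup Y)).comap (QuotientGroup.mk' (fittingSubgroup Y)) with hT
  have hTp : IsPGroup 2 T := P.isPGroup'.to_le inf_le_left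
  -- the two homomorphisms
  set ψ : T →* Y ⧸ fittingSubgroup Y := (QuotientGroup.mk' (fittingSubgroup Y)).comp T.subtype with hψ
  set φ : T →* MulAut (Qf Y) := (MulAut.conjNormal (H := Qf Y)).comp T.subtype with hφ
  have hker : φ.ker ≤ ψ.ker := by
    intro t ht
    rw [MonoidHom.mem_ker] at ht ⊢
    change QuotientGroup.mk' (fittingSubgroup Y) (t : Y) = 1
    rw [QuotientGroup.mk'_apply, QuotientGroup.eq_one_iff]
    apply inf_centralizer_le
    refine ⟨t.2.2, ?_⟩
    change (t : Y) ∈ centralizer (Qf Y : Set Y)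
    rw [mem_centralizer_iff]
    intro q hq
    have h1 := congrArg (fun f : MulAut (Qf Y) => ((f ⟨q, hq⟩ : Qf Y) : Y)) ht
    have h2 : (t : Y) * q * (t : Y)⁻¹ = q := h1
    calc q * (t : Y) = (t : Y) * q * (t : Y)⁻¹ * t := by rw [h2]
      _ = t * q := by group
  have hrange : pCore 2 (Y ⧸ fittingSubgroup Y) ≤ ψ.range := by
    intro z hz
    have h1 : pCore 2 (Y ⧸ fittingSubgroup Y) ≤ (P : Subgroup Y).map (QuotientGroup.mk' (fittingSubgroup Y)) :=
      pCore_le_sylow (P.mapSurjective (QuotientGroup.mk'_surjective (fittingSubgroup Y)))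
    obtain ⟨p, hp, rfl⟩ := h1 hz
    exact ⟨⟨p, hp, hz⟩, rfl⟩
  calc Nat.card (pCore 2 (Y ⧸ fittingSubgroup Y)) ≤ Nat.card ψ.range :=
        Nat.card_le_card_of_injective _ (inclusion_injective hrange)
    _ = ψ.ker.index := (index_ker ψ).symm
    _ ≤ φ.ker.index := index_antitone hker
    _ = Nat.card φ.range := index_ker φ
    _ ≤ Nat.card (Qf Y) ^ 2 := by
        apply hA (Qf Y) Qf_nilpotent Qf_odd
        rintro ⟨_, t, rfl⟩
        obtain ⟨k, hk⟩ := hTp t
        refine ⟨k, Subtype.ext ?_⟩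
        change (φ t) ^ 2 ^ k = 1
        rw [← map_pow, hk, map_one]

/-- `|F(Y)| ≤ |O_2(Y)| |Q|` -/
theorem card_fitting_le [Finite Y] : Nat.card (fittingSubgroup Y) ≤ Nat.card (pCore 2 Y) * Nat.card (Qf Y) := by
  have hF : Fact (Nat.Prime 2) := ⟨Nat.prime_two⟩
  refine (Nat.card_le_card_of_injective _ (inclusion_injective (fitting_le_sup (Y := Y) 2))).trans ?_
  exact Nat.le_of_dvd (Nat.mul_pos Nat.card_pos Nat.card_pos) (card_sup_dvd _ _ (pCore_normal 2))

/-- `F(Y) ≤ Q` if `O_2(Y) = 1` -/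
theorem fitting_le_Qf [Finite Y] (h : pCore 2 Y = ⊥) : fittingSubgroup Y ≤ Qf Y := by
  have hF : Fact (Nat.Prime 2) := ⟨Nat.prime_two⟩
  have h1 := fitting_le_sup (Y := Y) 2
  rwa [h, bot_sup_eq] at h1

/-- the image of `C_Y(F(Y))` in `Y/F(Y)` meets `F(Y/F(Y))` trivially -/
theorem map_centralizer_inf_eq_bot [Finite Y] :
    (centralizer (fittingSubgroup Y : Set Y)).map (QuotientGroup.mk' (fittingSubgroup Y)) ⊓
      fittingSubgroup (Y ⧸ fittingSubgroup Y) = ⊥ := by
  rw [eq_bot_iff]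
  rintro _ ⟨⟨x, hx, rfl⟩, hxK⟩
  set E := centralizer (fittingSubgroup Y : Set Y) ⊓
    (fittingSubgroup (Y ⧸ fittingSubgroup Y)).comap (QuotientGroup.mk' (fittingSubgroup Y)) with hE
  have hEn : E.Normal := by
    have h1 : ((fittingSubgroup (Y ⧸ fittingSubgroup Y)).comap (QuotientGroup.mk' (fittingSubgroup Y))).Normal :=
      inferInstance
    have h2 : (centralizer (fittingSubgroup Y : Set Y)).Normal := inferInstance
    exact normal_inf_normal _ _
  have hEF : E ≤ fittingSubgroup Y := by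
    apply le_fittingSubgroup hEn
    set f : E →* fittingSubgroup (Y ⧸ fittingSubgroup Y) :=
      ((QuotientGroup.mk' (fittingSubgroup Y)).comp E.subtype).codRestrict _ (fun e => e.2.2) with hf
    have hnil := fittingSubgroup_isNilpotent (G := Y ⧸ fittingSubgroup Y)
    have hker : f.ker ≤ center E := by
      intro d hd
      rw [MonoidHom.mem_ker] at hd
      have hd1 : QuotientGroup.mk' (fittingSubgroup Y) (d : Y) = 1 := congrArg Subtype.val hd
      have hdQ : (d : Y) ∈ fittingSubgroup Y := (QuotientGroup.eq_one_iff _).1 hd1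
      rw [mem_center_iff]
      intro g
      exact Subtype.ext (mem_centralizer_iff.1 g.2.1 _ hdQ).symm
    exact Subgroup.isNilpotent_of_ker_le_center f hker
  rw [mem_bot, QuotientGroup.mk'_apply, QuotientGroup.eq_one_iff]
  exact hEF ⟨hx, hxK⟩

/-- the Fitting subgroup modulo a central subgroup -/
theorem comap_fitting_central [Finite Y] {Z : Subgroup Y} [Z.Normal] (hZ : Z ≤ center Y) :
    (fittingSubgroup (Y ⧸ Z)).comap (QuotientGroup.mk' Z) = fittingSubgroup Y := by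
  apply le_antisymm
  · set N := (fittingSubgroup (Y ⧸ Z)).comap (QuotientGroup.mk' Z) with hN
    have hNn : N.Normal := inferInstance
    apply le_fittingSubgroup hNn
    set f : N →* fittingSubgroup (Y ⧸ Z) :=
      ((QuotientGroup.mk' Z).comp N.subtype).codRestrict _ (fun e => e.2) with hf
    have hnil := fittingSubgroup_isNilpotent (G := Y ⧸ Z)
    have hker : f.ker ≤ center N := by
      intro d hd
      rw [MonoidHom.mem_ker] at hd
      have hd1 : QuotientGroup.mk' Z (d : Y) = 1 := congrArg Subtype.val hd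
      have hdQ : (d : Y) ∈ Z := (QuotientGroup.eq_one_iff _).1 hd1
      rw [mem_center_iff]
      intro g
      exact Subtype.ext (mem_center_iff.1 (hZ hdQ) g)
    exact Subgroup.isNilpotent_of_ker_le_center f hker
  · rw [← map_le_iff_le_comap]
    have h1 := (fittingSubgroup_normal (G := Y)).map _ (QuotientGroup.mk'_surjective Z)
    apply le_fittingSubgroup h1
    have hnil := fittingSubgroup_isNilpotent (G := Y)
    have h2 : ((QuotientGroup.mk' Z).comp (fittingSubgroup Y).subtype).range =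
        (fittingSubgroup Y).map (QuotientGroup.mk' Z) := by
      rw [MonoidHom.range_eq_map, ← map_map, ← MonoidHom.range_eq_map, range_subtype]
    have h3 : Group.IsNilpotent ((QuotientGroup.mk' Z).comp (fittingSubgroup Y).subtype).range :=
      Group.nilpotent_of_surjective _ (MonoidHom.rangeRestrict_surjective _)
    rw [← h2]
    exact h3

theorem index_fitting_central [Finite Y] {Z : Subgroup Y} [Z.Normal] (hZ : Z ≤ center Y) :
    (fittingSubgroup (Y ⧸ Z)).index = (fittingSubgroup Y).index := by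
  rw [← comap_fitting_central hZ]
  exact (index_comap_of_surjective _ (QuotientGroup.mk'_surjective Z)).symm

/-- if `F(Y)` is central, then `F(Y/F(Y)) = 1` -/
theorem fitting_quot_eq_bot [Finite Y] (h : fittingSubgroup Y ≤ center Y) :
    fittingSubgroup (Y ⧸ fittingSubgroup Y) = ⊥ := by
  have h1 := comap_fitting_central h
  rw [eq_bot_iff]
  intro x hx
  obtain ⟨y, rfl⟩ := QuotientGroup.mk_surjective x
  rw [mem_bot, QuotientGroup.eq_one_iff, ← h1]
  exact hx

end Cfsg.Agent.H481.SolPart
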