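import Cfsg.Agent.H481.ElemAb
import Cfsg.Agent.H481.SolPart
import Cfsg.Agent.H481.Num

/-!
# `[G : F(G)] < (m!)⁴`: the reduction

`main` : the bound follows from `AutBound` (2-groups of automorphisms of nilpotent groups of odd order) and
`TopBound` (groups with trivial Fitting subgroup).
-/

set_option autoImplicit false

namespace Cfsg.Agent.H481.Inv

open Cfsg Cfsg.Agent.Lib.Cores Cfsg.Agent.H481.SolPart Nat

universe u

/-- groups with trivial Fitting subgroup -/
def TopBound : Prop := ∀ (X : Type u) [Group X] [Finite X], fittingSubgroup X = ⊥ →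
  ∀ α : MulAut X, (∀ x, α (α x) = x) → ∃ (n : ℕ) (A : Subgroup X), (∀ a ∈ A, ∀ b ∈ A, a * b = b * a) ∧
    (∀ a ∈ A, a * a = 1) ∧ (∀ a ∈ A, α a ∈ A) ∧ 2 ^ n ≤ Nat.card A ∧
      Nat.card X ≤ n.factorial * Nat.card {x : X // α x = x} ^ 5

theorem center_eq_bot_of_fitting {X : Type u} [Group X] (h : fittingSubgroup X = ⊥) :
    Subgroup.center X = ⊥ := by
  rw [eq_bot_iff, ← h]
  have hn : Group.IsNilpotent (Subgroup.center X) := by
    apply Subgroup.isNilpotent_of_ker_le_center (1 : Subgroup.center X →* Unit)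
    intro x _
    rw [Subgroup.mem_center_iff]
    intro y
    exact Subtype.ext (Subgroup.mem_center_iff.1 x.2 y)
  exact le_fittingSubgroup inferInstance hn

/-- the top bound with `[X, α] = X` -/
theorem top_le (hTop : TopBound.{u}) {X : Type u} [Group X] [Finite X] [Nontrivial X]
    (hF : fittingSubgroup X = ⊥) {α : MulAut X} (h2 : ∀ x, α (α x) = x) (hG : Full α) {k : ℕ} (_hk : 0 < k)
    (hJ : Nat.card (J α) ≤ 2 * k + 1) (hc : Nat.card (fixed α) ≤ (2 * k)‼) :
    Nat.card X ≤ (2 * k)! * (2 * k)‼ ^ 5 := by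
  obtain ⟨n, A, _, hsq, hinv, hn, hX⟩ := hTop X hF α h2
  have h1 := card_le_of_sub h2 hG (center_eq_bot_of_fitting hF) A hinv hsq
  have h3 : n ≤ 2 * k := by
    have h4 : 2 ^ n ≤ 2 ^ (2 * k) := by
      refine hn.trans (h1.trans ?_)
      apply Nat.pow_le_pow_right (by norm_num)
      omega
    exact (Nat.pow_le_pow_iff_right (by norm_num)).1 h4
  refine hX.trans ?_
  have h5 : Nat.card {x : X // α x = x} ≤ (2 * k)‼ := hc
  exact Nat.mul_le_mul (Nat.factorial_le h3) (Nat.pow_le_pow_left h5 5)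

theorem fitting_map {X : Type u} [Group X] (β : MulAut X) :
    (fittingSubgroup X).map β.toMonoidHom = fittingSubgroup X := map_equiv_fittingSubgroup β

/-- the inductive step: `Y` has few fixed points, `G₁ = Y/F(Y)` -/
theorem step (hTop : TopBound.{u}) (hAut : AutBound.{u}) {Y : Type u} [Group Y] [Finite Y] {β : MulAut Y}
    (h2 : ∀ x, β (β x) = x) (hG : Full β) {k : ℕ} (hk : 0 < k)
    (hJ : Nat.card (J β) ≤ 2 * k + 1) (hc : Nat.card (fixed β) ≤ (2 * k)‼)
    (IH : ∀ (X : Type u) [Group X] [Finite X] [Nontrivial X] (α : MulAut X), (∀ x, α (α x) = x) → Full α →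
      Nat.card (J α) < 2 * k + 1 → (fittingSubgroup X).index < (Nat.card (J α))! ^ 4) :
    (fittingSubgroup Y).index < (2 * k + 1)! ^ 4 := by
  set F := fittingSubgroup Y with hFdef
  have hFm := fitting_map β
  set γ := qa β F hFm with hγ
  have g2 : ∀ x, γ (γ x) = x := qa_qa h2 hFm
  have gG : Full γ := full_qa hG hFm
  have hc1 : Nat.card (fixed γ) ≤ (2 * k)‼ := (card_fixed_qa_le hFm).trans hc
  have hm1 : Nat.card (J γ) ≤ 2 * k + 1 := (card_J_qa_le h2 hFm).trans hJ
  change Nat.card (Y ⧸ F) < _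
  have hfac : 1 < (2 * k + 1)! ^ 4 := by
    have h1 : 1 < (2 * k + 1)! := by
      have := Nat.self_le_factorial (2 * k + 1)
      omega
    exact Nat.one_lt_pow (by norm_num) h1
  rcases subsingleton_or_nontrivial (Y ⧸ F) with hs | hnt
  · rw [Nat.card_of_subsingleton (1 : Y ⧸ F)]
    exact hfac
  -- `K = F(G₁)`
  set K := fittingSubgroup (Y ⧸ F) with hK
  have hQY := Qf_odd (Y := Y)
  have hQ1 := Qf_odd (Y := Y ⧸ F)
  have hKcard : Nat.card K * K.index = Nat.card (Y ⧸ F) := Subgroup.card_mul_index K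
  have hK1 : Nat.card K ≤ Nat.card (pCore 2 (Y ⧸ F)) * Nat.card (Qf (Y ⧸ F)) := card_fitting_le
  have hQ1c : Nat.card (Qf (Y ⧸ F)) ≤ Nat.card (JN γ (Qf (Y ⧸ F))) * (2 * k)‼ :=
    (card_odd_sub_le g2 (fun x hx => apply_mem_Qf γ hx) hQ1).trans (Nat.mul_le_mul le_rfl hc1)
  rcases odd_dichotomy h2 (fun x hx => apply_mem_Qf β hx) hQY with hA | hB
  · -- case A
    have h3 : Nat.card (J γ) * Nat.card (JN β (Qf Y)) ≤ 2 * k + 1 :=
      (card_J_mul_le h2 Qf_normal hQY Qf_le hFm).trans hJ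
    have hJpos : 0 < Nat.card (J γ) := by
      have : Nonempty (J γ) := ⟨⟨1, one_mem_J γ⟩⟩
      exact Nat.card_pos
    have h4 : 3 * Nat.card (J γ) ≤ 2 * k + 1 := by
      refine le_trans ?_ h3
      rw [mul_comm]
      exact Nat.mul_le_mul le_rfl hA
    have hIH := IH (Y ⧸ F) γ g2 gG (by omega)
    have hQc : Nat.card (Qf Y) ≤ Nat.card (JN β (Qf Y)) * (2 * k)‼ :=
      (card_odd_sub_le h2 (fun x hx => apply_mem_Qf β hx) hQY).trans (Nat.mul_le_mul le_rfl hc)
    have hP : Nat.card (pCore 2 (Y ⧸ F)) ≤ (Nat.card (JN β (Qf Y)) * (2 * k)‼) ^ 2 :=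
      (card_pCore_le hAut).trans (Nat.pow_le_pow_left hQc 2)
    have h5 : Nat.card (JN γ (Qf (Y ⧸ F))) ≤ Nat.card (J γ) := card_JN_le _
    have h6 : Nat.card (JN β (Qf Y)) ≤ 2 * k + 1 := by
      refine le_trans ?_ h3
      exact Nat.le_mul_of_pos_left _ hJpos
    have hKc : Nat.card K ≤ (2 * k)‼ ^ 3 * (2 * k + 1) ^ 2 := by
      calc Nat.card K ≤ Nat.card (pCore 2 (Y ⧸ F)) * Nat.card (Qf (Y ⧸ F)) := hK1
        _ ≤ (Nat.card (JN β (Qf Y)) * (2 * k)‼) ^ 2 * (Nat.card (J γ) * (2 * k)‼) := by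
            apply Nat.mul_le_mul hP
            exact hQ1c.trans (Nat.mul_le_mul h5 le_rfl)
        _ = (2 * k)‼ ^ 3 * (Nat.card (J γ) * Nat.card (JN β (Qf Y)) * Nat.card (JN β (Qf Y))) := by ring
        _ ≤ (2 * k)‼ ^ 3 * ((2 * k + 1) * (2 * k + 1)) := by
            apply Nat.mul_le_mul le_rfl
            exact Nat.mul_le_mul h3 h6
        _ = (2 * k)‼ ^ 3 * (2 * k + 1) ^ 2 := by ring
    rw [← hKcard]
    have hpos : 0 < (2 * k)‼ ^ 3 * (2 * k + 1) ^ 2 := by
      have := Nat.doubleFactorial_pos (2 * k)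
      positivity
    calc Nat.card K * K.index ≤ ((2 * k)‼ ^ 3 * (2 * k + 1) ^ 2) * K.index := Nat.mul_le_mul hKc le_rfl
      _ < ((2 * k)‼ ^ 3 * (2 * k + 1) ^ 2) * (Nat.card (J γ))! ^ 4 := Nat.mul_lt_mul_of_pos_left hIH hpos
      _ ≤ (2 * k + 1)! ^ 4 := Num.caseA k _ hk h4
  · -- case B
    have hcen : Qf Y ≤ Subgroup.center Y := le_center_of_fixed hG Qf_normal hB
    have hP : pCore 2 (Y ⧸ F) = ⊥ := pCore_eq_bot hcen
    have hP1 : Nat.card (pCore 2 (Y ⧸ F)) = 1 := by rw [hP]; exact Subgroup.card_bot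
    have hKQ : Nat.card K ≤ Nat.card (Qf (Y ⧸ F)) := by
      rw [hP1, one_mul] at hK1; exact hK1
    rcases odd_dichotomy g2 (fun x hx => apply_mem_Qf γ hx) hQ1 with hA1 | hB1
    · -- case B1
      have hJC : Nat.card (JC β F hFm) * Nat.card (JN γ (Qf (Y ⧸ F))) ≤ Nat.card (J γ) := by
        set C1 := (Subgroup.centralizer (F : Set Y)).map (QuotientGroup.mk' F) with hC1
        have hC1n : C1.Normal := by
          have : (Subgroup.centralizer (F : Set Y)).Normal := inferInstance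
          exact this.map _ (QuotientGroup.mk'_surjective F)
        have hinf : C1 ⊓ Qf (Y ⧸ F) = ⊥ := by
          rw [eq_bot_iff, ← map_centralizer_inf_eq_bot (Y := Y)]
          exact inf_le_inf le_rfl Qf_le
        have h7 : Nat.card (JC β F hFm) ≤ Nat.card (JN γ C1) := by
          apply Nat.card_le_card_of_injective (fun x : JC β F hFm => (⟨x.1, x.2.1, by
            obtain ⟨y, _, hyx, hyc⟩ := x.2.2
            refine ⟨y, ?_, hyx⟩
            change y ∈ Subgroup.centralizer (F : Set Y)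
            rw [Subgroup.mem_centralizer_iff]
            intro n hn
            exact (hyc n hn).eq⟩ : JN γ C1))
          intro x y h
          have h8 := congrArg (Subtype.val : JN γ C1 → Y ⧸ F) h
          exact Subtype.ext h8
        refine le_trans (Nat.mul_le_mul h7 le_rfl) ?_
        apply card_JN_mul_le hinf
        intro c hc' q hq
        exact Subgroup.commute_of_normal_of_disjoint _ _ hC1n Qf_normal (disjoint_iff.2 hinf) c q hc' hq
      have h8 : 2 * Nat.card (J γ) ≤ Nat.card (J β) + Nat.card (JC β F hFm) := two_mul_card_J_le h2 hFm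
      have h9 : 5 * Nat.card (J γ) ≤ 3 * (2 * k + 1) := by
        have h10 : Nat.card (JC β F hFm) * 3 ≤ Nat.card (J γ) :=
          le_trans (Nat.mul_le_mul le_rfl hA1) hJC
        omega
      have hIH := IH (Y ⧸ F) γ g2 gG (by omega)
      have hKc : Nat.card K ≤ Nat.card (J γ) * (2 * k)‼ :=
        hKQ.trans (hQ1c.trans (Nat.mul_le_mul (card_JN_le _) le_rfl))
      have hpos : 0 < Nat.card (J γ) * (2 * k)‼ := by
        have : Nonempty (J γ) := ⟨⟨1, one_mem_J γ⟩⟩
        exact Nat.mul_pos Nat.card_pos (Nat.doubleFactorial_pos _)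
      rw [← hKcard]
      calc Nat.card K * K.index ≤ (Nat.card (J γ) * (2 * k)‼) * K.index := Nat.mul_le_mul hKc le_rfl
        _ < (Nat.card (J γ) * (2 * k)‼) * (Nat.card (J γ))! ^ 4 := Nat.mul_lt_mul_of_pos_left hIH hpos
        _ ≤ (2 * k + 1)! ^ 4 := Num.caseB k _ h9
    · -- case B2
      have hKle : K ≤ Qf (Y ⧸ F) := fitting_le_Qf hP
      have hcen1 : Qf (Y ⧸ F) ≤ Subgroup.center (Y ⧸ F) := le_center_of_fixed gG Qf_normal hB1
      have hKcen : K ≤ Subgroup.center (Y ⧸ F) := hKle.trans hcen1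
      have hKc : Nat.card K ≤ (2 * k)‼ := by
        refine le_trans ?_ hc1
        apply Nat.card_le_card_of_injective (fun x : K => (⟨x, hB1 x (hKle x.2)⟩ : fixed γ))
        intro x y h
        have h8 := congrArg (Subtype.val : fixed γ → Y ⧸ F) h
        exact Subtype.ext h8
      have hKm := fitting_map γ
      have hF2 : fittingSubgroup ((Y ⧸ F) ⧸ K) = ⊥ := fitting_quot_eq_bot hKcen
      rw [← hKcard]
      change Nat.card K * Nat.card ((Y ⧸ F) ⧸ K) < _
      have hdf : 0 < (2 * k)‼ := Nat.doubleFactorial_pos _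
      have hle : Nat.card ((Y ⧸ F) ⧸ K) ≤ (2 * k)! * (2 * k)‼ ^ 5 := by
        rcases subsingleton_or_nontrivial ((Y ⧸ F) ⧸ K) with hs | hnt2
        · rw [Nat.card_of_subsingleton (1 : (Y ⧸ F) ⧸ K)]
          exact Nat.mul_pos (Nat.factorial_pos _) (pow_pos hdf _)
        · exact top_le hTop hF2 (qa_qa g2 hKm) (full_qa gG hKm) hk ((card_J_qa_le g2 hKm).trans hm1)
            ((card_fixed_qa_le hKm).trans hc1)
      calc Nat.card K * Nat.card ((Y ⧸ F) ⧸ K) ≤ (2 * k)‼ * ((2 * k)! * (2 * k)‼ ^ 5) := Nat.mul_le_mul hKc hle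
        _ < (2 * k + 1)! ^ 4 := Num.top k hk

theorem main (hTop : TopBound.{u}) (hAut : AutBound.{u}) : ∀ (m : ℕ) (X : Type u) [Group X] [Finite X]
    [Nontrivial X] (α : MulAut X), (∀ x, α (α x) = x) → Full α → Nat.card (J α) = m →
      (fittingSubgroup X).index < m ! ^ 4 := by
  intro m
  induction m using Nat.strong_induction_on with
  | _ m ih =>
    intro X _ _ _ α h2 hG hm
    obtain ⟨k, hk, hJ, hc⟩ := fixed_center_le' h2 hG
    have hZm := center_map (α := α) h2
    rw [← index_fitting_central (Z := Subgroup.center X) le_rfl, ← hm, hJ]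
    apply step hTop hAut (qa_qa h2 hZm) (full_qa hG hZm) hk ((card_J_qa_le h2 hZm).trans hJ.le) hc
    intro X' _ _ _ α' h2' hG' hlt
    exact ih _ (by omega) X' α' h2' hG' rfl

end Cfsg.Agent.H481.Inv
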