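import Cfsg.Agent.H481.Fib
import Mathlib.GroupTheory.Perm.Centralizer
import Mathlib.Data.Nat.Factorial.DoubleFactorial

/-!
# `α` has at most `(|J| - 1)‼` fixed points on `G / Z(G)`

The elements of `G / Z(G)` fixed by `α` act faithfully on `J`, commuting with the inversion of `J`.
-/

set_option autoImplicit false

namespace Cfsg.Agent.H481.Inv

open Cfsg Nat

universe u

/-- the centralizer in the symmetric group of an involution with exactly one fixed point -/
theorem card_centralizer_involution {Ω : Type u} [Finite Ω] (ι : Equiv.Perm Ω) (h2 : ι * ι = 1) (h1 : ι ≠ 1)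
    (o : Ω) (hfix : ∀ x, ι x = x ↔ x = o) :
    ∃ k, 0 < k ∧ Nat.card Ω = 2 * k + 1 ∧ Nat.card (Subgroup.centralizer {ι}) = (2 * k)‼ := by
  classical
  have := Fintype.ofFinite Ω
  have hord : orderOf ι = 2 := orderOf_eq_prime (by rw [pow_two, h2]) h1
  obtain ⟨n, hn⟩ := Equiv.Perm.cycleType_prime_order (σ := ι) (by rw [hord]; exact Nat.prime_two)
  rw [hord] at hn
  have hs : ι.support.card = 2 * (n + 1) := by
    rw [← Equiv.Perm.sum_cycleType, hn, Multiset.sum_replicate, smul_eq_mul, mul_comm]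
  have hsup : ι.support = Finset.univ.erase o := by
    ext x
    rw [Equiv.Perm.mem_support, Finset.mem_erase, ne_eq, hfix]
    simp
  have hcard : Fintype.card Ω = 2 * (n + 1) + 1 := by
    rw [hsup, Finset.card_erase_of_mem (Finset.mem_univ o), Finset.card_univ] at hs
    have : 0 < Fintype.card Ω := Fintype.card_pos_iff.2 ⟨o⟩
    omega
  refine ⟨n + 1, Nat.succ_pos _, by rw [Nat.card_eq_fintype_card, hcard], ?_⟩
  rw [Equiv.Perm.nat_card_centralizer, hn, hcard, Multiset.sum_replicate, Multiset.prod_replicate,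
    Multiset.toFinset_replicate]
  simp only [Nat.add_eq_zero_iff, one_ne_zero, and_false, if_false, Finset.prod_singleton,
    Multiset.count_replicate_self, smul_eq_mul]
  rw [show 2 * (n + 1) + 1 - (n + 1) * 2 = 1 by omega, Nat.factorial_one, one_mul, Nat.doubleFactorial_two_mul]

section

variable {G : Type u} [Group G] {α : MulAut G}

/-- the inversion of `J` -/
def invJ (α : MulAut G) : Equiv.Perm (J α) where
  toFun x := ⟨x⁻¹, inv_mem_J α x.2⟩
  invFun x := ⟨x⁻¹, inv_mem_J α x.2⟩
  left_inv x := Subtype.ext (inv_inv _)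
  right_inv x := Subtype.ext (inv_inv _)

theorem eq_one_of_inv_eq {x : G} (hx : x ∈ J α) (h : x⁻¹ = x) : x = 1 := by
  have h3 : x ^ 2 = 1 := by
    rw [pow_two]
    nth_rewrite 1 [← h]
    exact inv_mul_cancel x
  have h4 := (Nat.dvd_prime Nat.prime_two).1 (orderOf_dvd_of_pow_eq_one h3)
  rcases h4 with h4 | h4
  · exact orderOf_eq_one_iff.1 h4
  · have := hx.1
    rw [h4] at this
    exact absurd this (by decide)

theorem exists_ne_one [Finite G] [Nontrivial G] (h2 : ∀ x, α (α x) = x) (hG : Full α) : ∃ x ∈ J α, x ≠ 1 := by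
  by_contra hcon
  push Not at hcon
  have h1 := closure_J h2 hG
  have h3 : Subgroup.closure (J α) ≤ ⊥ := by
    rw [Subgroup.closure_le]
    intro x hx
    exact Subgroup.mem_bot.2 (hcon x hx)
  rw [h1] at h3
  exact bot_ne_top (le_antisymm bot_le h3)

/-- the centralizer of the inversion in the symmetric group on `J` -/
theorem card_centralizer_invJ [Finite G] {x : G} (hx : x ∈ J α) (hx1 : x ≠ 1) :
    ∃ k, 0 < k ∧ Nat.card (J α) = 2 * k + 1 ∧ Nat.card (Subgroup.centralizer {invJ α}) = (2 * k)‼ := by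
  apply card_centralizer_involution (invJ α) ?_ ?_ ⟨1, one_mem_J α⟩ ?_
  · ext y
    exact inv_inv _
  · intro h
    have h1 := congrArg (fun f : Equiv.Perm (J α) => ((f ⟨x, hx⟩ : J α) : G)) h
    exact hx1 (eq_one_of_inv_eq hx h1)
  · intro y
    constructor
    · intro h
      have h1 : (y : G)⁻¹ = y := congrArg (Subtype.val : J α → G) h
      exact Subtype.ext (eq_one_of_inv_eq y.2 h1)
    · rintro rfl
      exact Subtype.ext (inv_one)

/-- conjugation on `J` by an element fixed modulo the centre -/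
noncomputable def conjJ [Finite G] (g : G) (hg : (α g)⁻¹ * g ∈ Subgroup.center G) : Equiv.Perm (J α) :=
  Equiv.ofBijective (fun y : J α => (⟨g * y * g⁻¹, conj_mem_J hg y.2⟩ : J α))
    (Finite.injective_iff_bijective.1 (fun y z h => by
      have h1 := congrArg (Subtype.val : J α → G) h
      exact Subtype.ext (by simpa using h1)))

theorem conjJ_apply [Finite G] (g : G) (hg : (α g)⁻¹ * g ∈ Subgroup.center G) (y : J α) :
    ((conjJ g hg y : J α) : G) = g * y * g⁻¹ := rfl

theorem conjJ_mem [Finite G] (g : G) (hg : (α g)⁻¹ * g ∈ Subgroup.center G) :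
    conjJ g hg ∈ Subgroup.centralizer {invJ α} := by
  rw [Subgroup.mem_centralizer_singleton_iff]
  ext y
  change g * (y : G)⁻¹ * g⁻¹ = (g * y * g⁻¹)⁻¹
  group

/-- `ᾱ` has at most `(|J α| - 1)‼` fixed points on `G / Z(G)` -/
theorem fixed_center_le' [Finite G] [Nontrivial G] (h2 : ∀ x, α (α x) = x) (hG : Full α) :
    ∃ k, 0 < k ∧ Nat.card (J α) = 2 * k + 1 ∧
      Nat.card (fixed (qa α (Subgroup.center G) (center_map h2))) ≤ (2 * k)‼ := by
  obtain ⟨x, hx, hx1⟩ := exists_ne_one h2 hG
  obtain ⟨k, hk0, hk, hc⟩ := card_centralizer_invJ hx hx1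
  refine ⟨k, hk0, hk, ?_⟩
  have hout : ∀ x : fixed (qa α (Subgroup.center G) (center_map h2)),
      (α (Quotient.out (x : G ⧸ Subgroup.center G)))⁻¹ * Quotient.out (x : G ⧸ Subgroup.center G) ∈
        Subgroup.center G := by
    intro x
    rw [← QuotientGroup.eq]
    have h1 := x.2
    rw [mem_fixed] at h1
    have h3 : ((Quotient.out (x : G ⧸ Subgroup.center G) : G) : G ⧸ Subgroup.center G) = x :=
      QuotientGroup.out_eq' _
    rw [← qa_mk (center_map h2), h3, h1]
  rw [← hc]
  apply Nat.card_le_card_of_injective (fun x : fixed (qa α (Subgroup.center G) (center_map h2)) =>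
    (⟨conjJ _ (hout x), conjJ_mem _ (hout x)⟩ : Subgroup.centralizer {invJ α}))
  intro x y hxy
  apply Subtype.ext
  rw [← QuotientGroup.out_eq' (x : G ⧸ Subgroup.center G), ← QuotientGroup.out_eq' (y : G ⧸ Subgroup.center G),
    QuotientGroup.eq]
  apply mem_center_of_commute h2 hG
  intro z hz
  have h1 := congrArg (fun f : Subgroup.centralizer {invJ α} =>
    (((f : Equiv.Perm (J α)) ⟨z, hz⟩ : J α) : G)) hxy
  change Quotient.out (x : G ⧸ Subgroup.center G) * z * (Quotient.out (x : G ⧸ Subgroup.center G))⁻¹ =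
    Quotient.out (y : G ⧸ Subgroup.center G) * z * (Quotient.out (y : G ⧸ Subgroup.center G))⁻¹ at h1
  set a := Quotient.out (x : G ⧸ Subgroup.center G)
  set b := Quotient.out (y : G ⧸ Subgroup.center G)
  calc z * (a⁻¹ * b) = a⁻¹ * (a * z * a⁻¹) * b := by group
    _ = a⁻¹ * (b * z * b⁻¹) * b := by rw [h1]
    _ = a⁻¹ * b * z := by group

end

end Cfsg.Agent.H481.Inv
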